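import Mathlib
import Cfsg.Agent.Lib.Helper82.S4415.MonDefs

/-!
# S4415 [MON-PB]: degree 3, `K = 1`.
-/

set_option autoImplicit false

namespace Cfsg.Agent.Lib.Helper25.S4415

open Cfsg.Agent.Lib.Helper82.S4415

instance decCyc3 {n : ℕ} (c : Equiv.Perm (Fin n)) : Decidable (Cyc3 c) := by
  unfold Cyc3; infer_instance

set_option maxRecDepth 100000 in
theorem pb_aux : ∀ c k : Equiv.Perm (Fin 3), Cyc3 c → k ≠ 1 →
    (k ^ 3 = 1 ∨ ((k * (c * k * c⁻¹)) ^ 3 = 1 ∧ k * (c * k * c⁻¹) ≠ 1)) := by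
  decide

theorem pkgMonPB : PkgMonPB := by
  intro K c hK k hk
  obtain ⟨hc, hconj, h3, -⟩ := hK
  by_contra hne
  rcases pb_aux c k hc hne with h | ⟨h1, h2⟩
  · exact hne (h3 k hk h)
  · exact h2 (h3 _ (K.mul_mem hk (hconj k hk)) h1)

end Cfsg.Agent.Lib.Helper25.S4415
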