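import Mathlib
import Cfsg.Agent.Lib.Helper82.S4415.MonDefs
import Cfsg.Agent.Lib.Helper25.S4415.MonPB

/-!
# S4415 [MON-PC]: degree 4, the elements of `K` are `1` or fixed-point-free involutions and
`K` is transitive.
-/

set_option autoImplicit false

namespace Cfsg.Agent.Lib.Helper25.S4415

open Cfsg.Agent.Lib.Helper82.S4415

instance decOneOrFpf {n : ℕ} (p : Equiv.Perm (Fin n)) : Decidable (OneOrFpf p) := by
  unfold OneOrFpf; infer_instance

set_option maxRecDepth 1000000 in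
theorem pc_aux1 : ∀ c k : Equiv.Perm (Fin 4), Cyc3 c → ¬ OneOrFpf k →
    ((k * (c * k * c⁻¹)) ^ 3 = 1 ∧ k * (c * k * c⁻¹) ≠ 1) := by
  decide

set_option maxRecDepth 1000000 in
theorem pc_aux2 : ∀ c : Equiv.Perm (Fin 4), Cyc3 c → ∃ i, c i = i := by
  decide

set_option maxRecDepth 1000000 in
theorem pc_aux3 : ∀ c k : Equiv.Perm (Fin 4), Cyc3 c → k ≠ 1 → OneOrFpf k →
    ∀ i j, i = j ∨ k i = j ∨ (c * k * c⁻¹) i = j ∨ (c * (c * k * c⁻¹) * c⁻¹) i = j := by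
  decide

theorem pkgMonPC : PkgMonPC := by
  intro K c hK
  obtain ⟨hc, hconj, h3, htr⟩ := hK
  have hfpf : ∀ k ∈ K, OneOrFpf k := by
    intro k hk
    by_contra hne
    obtain ⟨h1, h2⟩ := pc_aux1 c k hc hne
    exact h2 (h3 _ (K.mul_mem hk (hconj k hk)) h1)
  refine ⟨hfpf, ?_⟩
  obtain ⟨f, hf⟩ := pc_aux2 c hc
  obtain ⟨k, hk, m, hkm⟩ := htr f (f + 1)
  have hcm : (c ^ m) f = f := Equiv.Perm.pow_apply_eq_self_of_apply_eq_self hf m
  rw [Equiv.Perm.mul_apply, hcm] at hkm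
  have hk1 : k ≠ 1 := by
    intro h
    rw [h, Equiv.Perm.one_apply] at hkm
    have h4 : ∀ x : Fin 4, x ≠ x + 1 := by decide
    exact h4 f hkm
  intro i j
  rcases pc_aux3 c k hc hk1 (hfpf k hk) i j with h | h | h | h
  · exact ⟨1, K.one_mem, by rw [Equiv.Perm.one_apply]; exact h⟩
  · exact ⟨k, hk, h⟩
  · exact ⟨_, hconj k hk, h⟩
  · exact ⟨_, hconj _ (hconj k hk), h⟩

end Cfsg.Agent.Lib.Helper25.S4415
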