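import Mathlib
import Cfsg.Agent.Lib.Helper82.S4415.MonDefs

/-!
# S4415 [MON-PROD]: the sign product is trivial on `R = ⁅R, ⟨b⟩⁆`.
-/

set_option autoImplicit false

namespace Cfsg.Agent.Lib.Helper25.S4415

open Cfsg.Agent.Lib.Helper82.S4415

open scoped commutatorElement

universe u

theorem pkgMonProd : PkgMonProd.{u} := by
  intro G _ R b n σ ε hSP hR
  obtain ⟨hpm, hcoc, -⟩ := hSP
  have hmul : ∀ g h : G, ∏ i, ε (g * h) i = (∏ i, ε h i) * ∏ i, ε g i := by
    intro g h
    simp only [hcoc, Finset.prod_mul_distrib]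
    congr 1
    exact Equiv.prod_comp (σ h) (fun i => ε g i)
  have hone : ∏ i, ε (1 : G) i = 1 := by
    apply Finset.prod_eq_one
    intro i _
    have h1 := hcoc 1 1 i
    rw [mul_one, map_one, Equiv.Perm.one_apply] at h1
    rcases hpm 1 i with h2 | h2
    · exact h2
    · rw [h2] at h1
      rw [h2]
      revert h1
      decide
  have hinv : ∀ g : G, (∏ i, ε g i) * ∏ i, ε g⁻¹ i = 1 := by
    intro g
    rw [← hmul, inv_mul_cancel, hone]
  let S : Subgroup G :=
    { carrier := {g | ∏ i, ε g i = 1}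
      one_mem' := hone
      mul_mem' := by
        intro g h hg hh
        show ∏ i, ε (g * h) i = 1
        rw [hmul, show ∏ i, ε g i = 1 from hg, show ∏ i, ε h i = 1 from hh, one_mul]
      inv_mem' := by
        intro g hg
        show ∏ i, ε g⁻¹ i = 1
        have h1 := hinv g
        rw [show ∏ i, ε g i = 1 from hg, one_mul] at h1
        exact h1 }
  have hle : ⁅R, Subgroup.zpowers b⁆ ≤ S := by
    rw [Subgroup.commutator_le]
    intro g₁ _ g₂ _
    show ∏ i, ε ⁅g₁, g₂⁆ i = 1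
    rw [commutatorElement_def, hmul, hmul, hmul]
    have h1 := hinv g₁
    have h2 := hinv g₂
    calc (∏ i, ε g₂⁻¹ i) * ((∏ i, ε g₁⁻¹ i) * ((∏ i, ε g₂ i) * ∏ i, ε g₁ i))
        = ((∏ i, ε g₁ i) * ∏ i, ε g₁⁻¹ i) * ((∏ i, ε g₂ i) * ∏ i, ε g₂⁻¹ i) := by ring
      _ = 1 := by rw [h1, h2, one_mul]
  intro r hr
  rw [← hR] at hr
  exact hle hr

end Cfsg.Agent.Lib.Helper25.S4415
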